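import Cfsg.Agent.H705.Tri.Abs
import Cfsg.Agent.H350.Tri.Defs

/-!
# S2187, TRI-6: `A₁³` in `D₄` (helper705)

`compY_A1`: the `τ`-fixed `r`-elements of `⟨X_a : a ∈ A1std⟩` generate a product of at most three commuting
quasi-simple groups with `Gen 3`.
-/

set_option autoImplicit false
set_option linter.unusedSectionVars false

namespace Cfsg.Agent.H705.Tri

open CoxeterSystem Cfsg Cfsg.Lie Cfsg.Agent.ChevalleyStructure Cfsg.Agent.ChevalleyStructure.Elts
open Cfsg.Agent.ChevalleyStructure.CoxeterGeom Cfsg.Agent.ChevalleyStructure.CoxeterGeomTypes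
  Cfsg.Agent.ChevalleyStructure.NPerm
open Cfsg.Agent.Tits.Roots Cfsg.Agent.Tits.Core Cfsg.Agent.Nodes Cfsg.Agent.Nodes.Reps Cfsg.Agent.Nodes.BNOf
  Cfsg.Agent.Nodes.Bruhat Cfsg.Agent.Nodes.RGDChev
open Cfsg.Agent.KFacts.RgdField Cfsg.Agent.KFacts.RgdChevCoord
open Cfsg.Agent.BpExc Cfsg.Agent.BpExc.TorCent Cfsg.Agent.BpExc.TorChev Cfsg.Agent.BpExc.Tow
  Cfsg.Agent.BpExc.TowChev Cfsg.Agent.BpExc.Fr Cfsg.Agent.BpExc.Pair Cfsg.Agent.BpExc.LangFr
open Cfsg.Agent.H469.Exc (KK)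
open Cfsg.Agent.H818.Gen Cfsg.Agent.H350.Tri
open Cfsg.Agent.H305.BalSL2 (commute_of_ZB exists_phi)

variable {r : ℕ} [hrf : Fact r.Prime]

/-! ### the fields -/

theorem exists_field {N : ℕ} (hN : 0 < N) (hr5 : 5 ≤ r) :
    ∃ (F : Type) (_ : Field F) (_ : Fintype F) (_ : CharP F r) (ι : F →+* KK r), 4 ≤ Nat.card F ∧
      (∀ s, (ι s) ^ r ^ N = ι s) ∧ ∀ s : KK r, s ^ r ^ N = s → s ∈ Set.range ι := by
  classical
  let _ : Algebra (ZMod r) (KK r) := ZMod.algebra (KK r) r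
  let _ : Fintype (GaloisField r N) := Fintype.ofFinite _
  let ι : GaloisField r N →+* KK r :=
    (IsAlgClosed.lift (R := ZMod r) (S := GaloisField r N) (M := KK r)).toRingHom
  have hcard : Nat.card (GaloisField r N) = r ^ N := GaloisField.card r N hN.ne'
  have hcard' : Fintype.card (GaloisField r N) = r ^ N := by rw [← hcard, Nat.card_eq_fintype_card]
  have hpow : ∀ s : GaloisField r N, (ι s) ^ r ^ N = ι s := by
    intro s
    rw [← map_pow, ← hcard', FiniteField.pow_card]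
  have hr1 : 1 < r := hrf.out.one_lt
  have h1N : 1 < r ^ N := Nat.one_lt_pow hN.ne' hr1
  refine ⟨GaloisField r N, inferInstance, inferInstance, inferInstance, ι, ?_, hpow, ?_⟩
  · rw [hcard]
    calc 4 ≤ r := by omega
      _ = r ^ 1 := (pow_one r).symm
      _ ≤ r ^ N := Nat.pow_le_pow_right (by omega) hN
  · intro s hs
    obtain ⟨P, hP⟩ : ∃ P : Polynomial (KK r), P = Polynomial.X ^ r ^ N - Polynomial.X := ⟨_, rfl⟩
    have hP0 : P ≠ 0 := by
      rw [hP]
      exact FiniteField.X_pow_card_sub_X_ne_zero (KK r) h1N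
    have hd : P.natDegree = r ^ N := by
      rw [hP]
      exact FiniteField.X_pow_card_sub_X_natDegree_eq (KK r) h1N
    have hroot : ∀ t : KK r, t ∈ P.roots.toFinset ↔ t ^ r ^ N = t := by
      intro t
      rw [Multiset.mem_toFinset, Polynomial.mem_roots hP0, Polynomial.IsRoot.def, hP]
      simp [sub_eq_zero]
    have hsub : (Finset.univ.image ι) ⊆ P.roots.toFinset := by
      intro t ht
      obtain ⟨x, -, rfl⟩ := Finset.mem_image.1 ht
      exact (hroot _).2 (hpow x)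
    have hc1 : (Finset.univ.image ι).card = r ^ N := by
      rw [Finset.card_image_of_injective _ ι.injective, Finset.card_univ, hcard']
    have hc2 : P.roots.toFinset.card ≤ r ^ N := by
      rw [← hd]
      exact (Multiset.toFinset_card_le _).trans (Polynomial.card_roots' P)
    have heq := Finset.eq_of_subset_of_card_le hsub (by rw [hc1]; exact hc2)
    have h3 : s ∈ Finset.univ.image ι := by rw [heq]; exact (hroot s).2 hs
    obtain ⟨x, -, hx⟩ := Finset.mem_image.1 h3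
    exact ⟨x, hx⟩

/-! ### the roots -/

/-- the three nodes -/
def nd : Fin 3 → Fin 4 := ![0, 2, 3]

theorem nd_inj : Function.Injective nd := by decide

theorem table : ∀ s < chevD4.nroots, vec chevD4 4 s 1 = 0 → ∀ a b : Fin 4, a ≠ b →
    vec chevD4 4 s a = 0 ∨ vec chevD4 4 s b = 0 := by decide +kernel

theorem sr_apply' (i j : Fin 4) : (sr i : Fin 4 → ℤ) j = if j = i then 1 else 0 := by
  by_cases h : j = i
  · subst h; rw [if_pos rfl, sr_self]
  · rw [if_neg h, sr_ne h]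

/-- orthogonal roots -/
theorem no_ZB {i j : Fin 3} (hij : i ≠ j) {ε δ : ℤ} (hε : ε ≠ 0) (hδ : δ ≠ 0) (z : Fin 4 → ℤ) :
    ¬ Zc.ZB coxeterD4.toCoxeterSystem RGDTwD4.hp.isCartan (ε • sr (nd i)) (δ • sr (nd j)) z := by
  rintro ⟨hz, a, b, ha, hb, rfl⟩
  obtain ⟨s, hs, he⟩ := (isRoot_iff RGDTwD4.hp coxeterD4.toCoxeterSystem _).1 hz
  have hne : nd i ≠ nd j := fun h => hij (nd_inj h)
  have hn1 : ∀ i, nd i ≠ 1 := by decide
  have h1 : vec chevD4 4 s 1 = 0 := by
    rw [he]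
    simp only [Pi.add_apply, Pi.smul_apply, sr_apply', smul_eq_mul]
    rw [if_neg (hn1 i).symm, if_neg (hn1 j).symm]
    ring
  rcases table s hs h1 (nd i) (nd j) hne with h2 | h2
  · rw [he] at h2
    simp only [Pi.add_apply, Pi.smul_apply, sr_apply', smul_eq_mul, if_true] at h2
    rw [if_neg hne] at h2
    have : a * ε = 0 := by linear_combination h2
    rcases mul_eq_zero.1 this with h | h
    · omega
    · exact hε h
  · rw [he] at h2
    simp only [Pi.add_apply, Pi.smul_apply, sr_apply', smul_eq_mul, if_true] at h2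
    rw [if_neg hne.symm] at h2
    have : b * δ = 0 := by linear_combination h2
    rcases mul_eq_zero.1 this with h | h
    · omega
    · exact hδ h

/-! ### the three groups -/

/-- `⟨X_γ, X_{-γ}⟩` -/
noncomputable def L (r : ℕ) [Fact r.Prime] (i : Fin 3) : Subgroup (Y4 r) :=
  XX chevD4 4 (KK r) (sr (nd i)) ⊔ XX chevD4 4 (KK r) (-sr (nd i))

theorem L_comm {i j : Fin 3} (hij : i ≠ j) {a b : Y4 r} (ha : a ∈ L r i) (hb : b ∈ L r j) : Commute a b := by
  have hrt : ∀ (i : Fin 3) (ε : ℤ), ε = 1 ∨ ε = -1 →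
      IsRoot coxeterD4.toCoxeterSystem RGDTwD4.hp.isCartan (ε • sr (nd i)) := by
    rintro i ε (rfl | rfl)
    · rw [one_smul]; exact isRoot_sr _ _ _
    · rw [neg_one_smul]; exact (isRoot_sr _ _ _).neg
  have hne : ∀ (ε δ : ℤ), (ε = 1 ∨ ε = -1) → ε • (sr (nd i) : Fin 4 → ℤ) ≠ δ • sr (nd j) := by
    intro ε δ hε h
    have h1 := congrFun h (nd i)
    simp only [Pi.smul_apply, sr_apply', smul_eq_mul, if_true] at h1
    rw [if_neg fun h => hij (nd_inj h), mul_one, mul_zero] at h1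
    omega
  have h0 : ∀ (ε δ : ℤ), (ε = 1 ∨ ε = -1) → (δ = 1 ∨ δ = -1) → ∀ a ∈ XX chevD4 4 (KK r) (ε • sr (nd i)),
      ∀ b ∈ XX chevD4 4 (KK r) (δ • sr (nd j)), Commute a b := by
    intro ε δ hε hδ a ha b hb
    refine commute_of_ZB RGDTwD4.hp coxeterD4.toCoxeterSystem (hrt i ε hε) (hrt j δ hδ) (hne ε δ hε) ?_
      (no_ZB hij (by rintro rfl; omega) (by rintro rfl; omega)) ha hb
    rw [← neg_smul]
    exact hne ε (-δ) hε
  have e1 : ∀ i : Fin 3, XX chevD4 4 (KK r) (sr (nd i)) = XX chevD4 4 (KK r) ((1 : ℤ) • sr (nd i)) := fun i => by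
    rw [one_smul]
  have e2 : ∀ i : Fin 3, XX chevD4 4 (KK r) (-sr (nd i)) = XX chevD4 4 (KK r) ((-1 : ℤ) • sr (nd i)) := fun i => by
    rw [neg_one_smul]
  have h1 : ∀ ε : ℤ, (ε = 1 ∨ ε = -1) → ∀ a ∈ XX chevD4 4 (KK r) (ε • sr (nd i)), Commute a b := by
    intro ε hε a ha
    have h2 : L r j ≤ Subgroup.centralizer {a} := by
      unfold L
      rw [e1, e2]
      refine sup_le ?_ ?_
      · intro c hc
        rw [Subgroup.mem_centralizer_singleton_iff]
        exact (h0 ε 1 hε (Or.inl rfl) a ha c hc).eq.symm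
      · intro c hc
        rw [Subgroup.mem_centralizer_singleton_iff]
        exact (h0 ε (-1) hε (Or.inr rfl) a ha c hc).eq.symm
    exact (Subgroup.mem_centralizer_singleton_iff.1 (h2 hb)).symm
  have h2 : L r i ≤ Subgroup.centralizer {b} := by
    unfold L
    rw [e1, e2]
    refine sup_le ?_ ?_
    · intro c hc
      rw [Subgroup.mem_centralizer_singleton_iff]
      exact (h1 1 (Or.inl rfl) c hc).eq
    · intro c hc
      rw [Subgroup.mem_centralizer_singleton_iff]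
      exact (h1 (-1) (Or.inr rfl) c hc).eq
  exact Subgroup.mem_centralizer_singleton_iff.1 (h2 ha)

theorem Sup_le_L {N : Subgroup (Y4 r)} (h : ∀ i, L r i ≤ N) : RGD.Sup (XX chevD4 4 (KK r)) A1std ≤ N := by
  refine RGD.Sup_le fun z hz => ?_
  have h1 : ∀ i, XX chevD4 4 (KK r) (sr (nd i)) ≤ N := fun i => le_sup_left.trans (h i)
  have h2 : ∀ i, XX chevD4 4 (KK r) (-sr (nd i)) ≤ N := fun i => le_sup_right.trans (h i)
  rcases hz with rfl | rfl | rfl | rfl | rfl | rfl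
  · exact h1 0
  · exact h1 1
  · exact h1 2
  · exact h2 0
  · exact h2 1
  · exact h2 2

theorem L_le_Sup (i : Fin 3) : L r i ≤ RGD.Sup (XX chevD4 4 (KK r)) A1std := by
  refine sup_le (RGD.le_Sup ?_) (RGD.le_Sup ?_)
  · fin_cases i
    · exact Or.inl rfl
    · exact Or.inr (Or.inl rfl)
    · exact Or.inr (Or.inr (Or.inl rfl))
  · fin_cases i
    · exact Or.inr (Or.inr (Or.inr (Or.inl rfl)))
    · exact Or.inr (Or.inr (Or.inr (Or.inr (Or.inl rfl))))
    · exact Or.inr (Or.inr (Or.inr (Or.inr (Or.inr rfl))))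

/-- the permutation of the three roots -/
theorem exists_perm {g : (Fin 4 → ℤ) ≃+ (Fin 4 → ℤ)}
    (hg : ∀ a ∈ A1std, g a ∈ A1std) (hpos : ∀ a ∈ A1std, 0 ≤ a → 0 ≤ g a) :
    ∃ σ : Fin 3 → Fin 3, Function.Injective σ ∧ ∀ i, g (sr (nd i)) = sr (nd (σ i)) := by
  have h1 : ∀ i, ∃ j, g (sr (nd i)) = sr (nd j) := by
    intro i
    have hi : (sr (nd i) : Fin 4 → ℤ) ∈ A1std := by
      fin_cases i
      · exact Or.inl rfl
      · exact Or.inr (Or.inl rfl)
      · exact Or.inr (Or.inr (Or.inl rfl))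
    have h0 : (0 : Fin 4 → ℤ) ≤ sr (nd i) := by
      intro j
      rw [sr_apply']
      show (0 : ℤ) ≤ _
      split_ifs <;> norm_num
    have h2 := hpos _ hi h0
    have h3 : ∀ j : Fin 4, g (sr (nd i)) ≠ -sr j := by
      intro j h4
      have h5 := h2 j
      rw [h4, Pi.neg_apply, sr_self] at h5
      have h6 : (0 : ℤ) ≤ -1 := h5
      omega
    rcases hg _ hi with h | h | h | h | h | h
    · exact ⟨0, h⟩
    · exact ⟨1, h⟩
    · exact ⟨2, h⟩
    · exact absurd h (h3 _)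
    · exact absurd h (h3 _)
    · exact absurd h (h3 _)
  choose σ hσ using h1
  refine ⟨σ, fun i j hij => ?_, hσ⟩
  have h2 : g (sr (nd i)) = g (sr (nd j)) := by rw [hσ, hσ, hij]
  have h3 := g.injective h2
  by_contra hne
  have h4 := congrFun h3 (nd i)
  rw [sr_self, sr_apply', if_neg fun h => hne (nd_inj h)] at h4
  exact one_ne_zero h4

theorem perm_cases : ∀ σ : Fin 3 → Fin 3, Function.Injective σ → (∀ i, σ i = i) ∨
    (∃ a b c : Fin 3, a ≠ b ∧ b ≠ c ∧ a ≠ c ∧ (∀ i, i = a ∨ i = b ∨ i = c) ∧ σ a = a ∧ σ b = c ∧ σ c = b) ∨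
    (∃ a b c : Fin 3, a ≠ b ∧ b ≠ c ∧ a ≠ c ∧ (∀ i, i = a ∨ i = b ∨ i = c) ∧ σ a = b ∧ σ b = c ∧ σ c = a) := by
  decide

section Main

variable {e : ℕ} {τ : MulAut (Y4 r)} {g : (Fin 4 → ℤ) ≃+ (Fin 4 → ℤ)}
  (F : Fr coxeterD4.toCoxeterSystem Cfsg.Agent.Nodes.RGDTwD4.hp.isCartan (TT chevD4 (KK r)) (XX chevD4 4 (KK r)) τ g)
  {σ : Fin 3 → Fin 3} (hσ : ∀ i, g (sr (nd i)) = sr (nd (σ i)))

include F hσ in
theorem L_map {i : Fin 3} {x : Y4 r} (hx : x ∈ L r i) : τ x ∈ L r (σ i) := by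
  have h1 : L r i ≤ (L r (σ i)).comap τ.toMonoidHom := by
    refine sup_le ?_ ?_
    · intro y hy
      have h2 := (F.map _ (isRoot_sr _ _ (nd i)) y).2 hy
      rw [hσ] at h2
      exact (le_sup_left : _ ≤ L r (σ i)) h2
    · intro y hy
      have h2 := (F.map _ (isRoot_sr _ _ (nd i)).neg y).2 hy
      rw [map_neg, hσ] at h2
      exact (le_sup_right : _ ≤ L r (σ i)) h2
  exact h1 hx

include F hσ in
theorem L_map_pow {i : Fin 3} {x : Y4 r} (hx : x ∈ L r i) (m : ℕ) : (τ ^ m) x ∈ L r (σ^[m] i) := by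
  induction m with
  | zero => exact hx
  | succ m ih =>
    rw [pow_succ', Function.iterate_succ_apply']
    exact L_map F hσ ih

/-- **the blocks** -/
theorem exists_blk (he : 0 < e) (hτ : IsFrob r e τ)
    (F : Fr coxeterD4.toCoxeterSystem Cfsg.Agent.Nodes.RGDTwD4.hp.isCartan (TT chevD4 (KK r)) (XX chevD4 4 (KK r)) τ g)
    (hσ : ∀ i, g (sr (nd i)) = sr (nd (σ i))) {i : Fin 3} {m : ℕ} (hm : 0 < m) (hgm : σ^[m] i = i)
    (hne : ∀ t, 0 < t → t < m → σ^[t] i ≠ i) :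
    ∃ φ : Matrix.SpecialLinearGroup (Fin 2) (KK r) →* Y4 r, Blk τ (r ^ (m * e)) m φ ∧ φ.range = L r i := by
  obtain ⟨gm, Fm, hgm'⟩ := F.pow m
  have hit : ∀ t, (⇑g)^[t] (sr (nd i)) = sr (nd (σ^[t] i)) := by
    intro t
    induction t with
    | zero => rfl
    | succ t ih => rw [Function.iterate_succ_apply', Function.iterate_succ_apply', ih, hσ]
  obtain ⟨φ, b, hb0, hup, hlo, hker, hτu, hτl⟩ := exists_phi RGDTwD4.hp coxeterD4.toCoxeterSystem
    (Nat.mul_pos hm he) (hτ.pow m) Fm (isRoot_sr _ _ (nd i)) (by rw [hgm', hit, hgm])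
  have hs : vec chevD4 4 (chevD4.simple (nd i)) = sr (nd i) := vec_simple RGDTwD4.hp (nd i)
  have hsl : chevD4.simple (nd i) < chevD4.nroots := by
    have : ∀ j : Fin 4, chevD4.simple j < chevD4.nroots := by decide +kernel
    exact this _
  have hns : chevD4.neg (chevD4.simple (nd i)) < chevD4.nroots :=
    (SL2All.good_of_mem chevD4 RGDTwD4.hp.inList _ hsl).neg_lt
  have hXu : ∀ y : Y4 r, y ∈ XX chevD4 4 (KK r) (sr (nd i)) ↔ ∃ s, y = φ (SL2Hom.up s) := by
    intro y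
    rw [← hs, HX.mem_XX_xc RGDTwD4.hp hsl]
    constructor
    · rintro ⟨t, rfl⟩
      refine ⟨b⁻¹ * t, ?_⟩
      rw [hup, hs, mul_inv_cancel_left₀ hb0]
    · rintro ⟨s, rfl⟩
      exact ⟨b * s, by rw [hup, hs]⟩
  have hXl : ∀ y : Y4 r, y ∈ XX chevD4 4 (KK r) (-sr (nd i)) ↔ ∃ s, y = φ (SL2Hom.lo s) := by
    intro y
    rw [← hs, ← vec_neg RGDTwD4.hp hsl, HX.mem_XX_xc RGDTwD4.hp hns]
    constructor
    · rintro ⟨t, rfl⟩
      refine ⟨b * t, ?_⟩
      rw [hlo, vec_neg RGDTwD4.hp hsl, hs, inv_mul_cancel_left₀ hb0]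
    · rintro ⟨s, rfl⟩
      exact ⟨b⁻¹ * s, by rw [hlo, vec_neg RGDTwD4.hp hsl, hs]⟩
  have hrange : φ.range = L r i := by
    apply le_antisymm
    · have h1 : (⊤ : Subgroup (Matrix.SpecialLinearGroup (Fin 2) (KK r))) =
          Subgroup.closure (Set.range (SL2Hom.up (F := KK r)) ∪ Set.range (SL2Hom.lo (F := KK r))) :=
        (eq_top_iff.2 fun A _ => SL2Hom.mem_closure_SL2 A).symm
      rw [MonoidHom.range_eq_map, h1, MonoidHom.map_closure, Subgroup.closure_le]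
      rintro _ ⟨_, ⟨s, rfl⟩ | ⟨s, rfl⟩, rfl⟩
      · exact (le_sup_left : _ ≤ L r i) ((hXu _).2 ⟨s, rfl⟩)
      · exact (le_sup_right : _ ≤ L r i) ((hXl _).2 ⟨s, rfl⟩)
    · refine sup_le ?_ ?_
      · intro y hy
        obtain ⟨s, rfl⟩ := (hXu y).1 hy
        exact ⟨_, rfl⟩
      · intro y hy
        obtain ⟨s, rfl⟩ := (hXl y).1 hy
        exact ⟨_, rfl⟩
  refine ⟨φ, ⟨hm, hker, hτu, hτl, fun t ht htm g g' => ?_⟩, hrange⟩
  refine L_comm (i := i) (j := σ^[t] i) (hne t ht htm).symm (by rw [← hrange]; exact ⟨g, rfl⟩) ?_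
  exact L_map_pow F hσ (by rw [← hrange]; exact ⟨g', rfl⟩) t

/-- the intersection condition -/
theorem L_sq (he : 0 < e) (hτ : IsFrob r e τ)
    (F : Fr coxeterD4.toCoxeterSystem Cfsg.Agent.Nodes.RGDTwD4.hp.isCartan (TT chevD4 (KK r)) (XX chevD4 4 (KK r)) τ g)
    (hσ : ∀ i, g (sr (nd i)) = sr (nd (σ i))) (hinj : Function.Injective σ) {i : Fin 3} {z : Y4 r} (hz : z ∈ L r i)
    (hc : ∀ x ∈ L r i, Commute x z) : z ^ 2 = 1 := by
  have hex : ∃ m, 0 < m ∧ σ^[m] i = i ∧ ∀ t, 0 < t → t < m → σ^[t] i ≠ i := by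
    have h6 : ∃ m, 0 < m ∧ σ^[m] i = i := by
      have : ∀ σ : Fin 3 → Fin 3, Function.Injective σ → ∀ i, σ^[6] i = i := by decide
      exact ⟨6, by norm_num, this σ hinj i⟩
    classical
    refine ⟨Nat.find h6, (Nat.find_spec h6).1, (Nat.find_spec h6).2, fun t ht htm h => ?_⟩
    exact Nat.find_min h6 htm ⟨ht, h⟩
  obtain ⟨m, hm, h1, h2⟩ := hex
  obtain ⟨φ, hB, hr⟩ := exists_blk he hτ F hσ hm h1 h2
  exact hB.sq (by rw [hr]; exact hz) fun A => hc _ (by rw [← hr]; exact ⟨A, rfl⟩)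

/-- **the components** -/
theorem exists_comp (hr5 : 5 ≤ r)
    (hSL : ∀ (F : Type) [Field F] [Fintype F] [CharP F r], Gen 3 (Matrix.SpecialLinearGroup (Fin 2) F))
    (hPSL : ∀ (F : Type) [Field F] [Fintype F] [CharP F r],
      Gen 3 (Matrix.SpecialLinearGroup (Fin 2) F ⧸ Subgroup.center (Matrix.SpecialLinearGroup (Fin 2) F)))
    (he : 0 < e) (hτ : IsFrob r e τ)
    (F : Fr coxeterD4.toCoxeterSystem Cfsg.Agent.Nodes.RGDTwD4.hp.isCartan (TT chevD4 (KK r)) (XX chevD4 4 (KK r)) τ g)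
    (hσ : ∀ i, g (sr (nd i)) = sr (nd (σ i))) {i : Fin 3} {m : ℕ} (hm : 0 < m) (hgm : σ^[m] i = i)
    (hne : ∀ t, 0 < t → t < m → σ^[t] i ≠ i) :
    ∃ K : Subgroup (Y4 r), IsQuasisimple ↥K ∧ Gen 3 ↥K ∧
      (∀ N : Subgroup (Y4 r), (∀ t < m, L r (σ^[t] i) ≤ N) → K ≤ N) ∧
      (K ≤ Subgroup.closure {u : Y4 r | u ∈ RGD.Sup (XX chevD4 4 (KK r)) A1std ∧ τ u = u ∧ ∃ j, u ^ r ^ j = 1}) ∧
      (∀ x ∈ L r i, (∃ j, x ^ r ^ j = 1) → (τ ^ m) x = x → NInst.op τ x m ∈ K) := by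
  obtain ⟨φ, hB, hrange⟩ := exists_blk he hτ F hσ hm hgm hne
  obtain ⟨E, _, _, _, ι, h4, hι, hι'⟩ := exists_field (r := r) (Nat.mul_pos hm he) hr5
  have hodd : Odd r := hrf.out.odd_of_ne_two (by omega)
  have hmem : ∀ t g, (τ ^ t) (φ g) ∈ L r (σ^[t] i) := fun t g =>
    L_map_pow F hσ (by rw [← hrange]; exact ⟨g, rfl⟩) t
  refine ⟨Kb ι hB, hB.qs ι h4, hB.gen ι (hSL E) (hPSL E), fun N hN => ?_, ?_, fun x hx hj hf => ?_⟩
  · exact hB.Kb_mem ι fun t ht g => hN t ht (hmem t g)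
  · exact hB.Kb_le ι hι (M := RGD.Sup (XX chevD4 4 (KK r)) A1std) (fun t _ g => L_le_Sup _ (hmem t g))
      fun u hu hfu hj => Subgroup.subset_closure ⟨hu, hfu, hj⟩
  · obtain ⟨j, hj⟩ := hj
    exact hB.op_mem ι hodd hι' (by rw [hrange]; exact hx) hj hf

/-- **TRI-6** -/
theorem compY_A1 (hr5 : 5 ≤ r)
    (hSL : ∀ (F : Type) [Field F] [Fintype F] [CharP F r], Gen 3 (Matrix.SpecialLinearGroup (Fin 2) F))
    (hPSL : ∀ (F : Type) [Field F] [Fintype F] [CharP F r],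
      Gen 3 (Matrix.SpecialLinearGroup (Fin 2) F ⧸ Subgroup.center (Matrix.SpecialLinearGroup (Fin 2) F)))
    {e : ℕ} (he : 0 < e) {τ : MulAut (Y4 r)} (hτ : IsFrob r e τ) {g : (Fin 4 → ℤ) ≃+ (Fin 4 → ℤ)}
    (F : Fr coxeterD4.toCoxeterSystem Cfsg.Agent.Nodes.RGDTwD4.hp.isCartan (TT chevD4 (KK r)) (XX chevD4 4 (KK r)) τ g)
    (hg : ∀ a ∈ A1std, g a ∈ A1std) (hpos : ∀ a ∈ A1std, 0 ≤ a → 0 ≤ g a) : CompY τ A1std := by
  obtain ⟨σ, hinj, hσ⟩ := exists_perm hg hpos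
  have hodd : Odd r := hrf.out.odd_of_ne_two (by omega)
  -- the decomposition
  have hc3 : ∀ a b c : Fin 3, a ≠ b → a ≠ c → ∀ x ∈ L r a, ∀ y ∈ L r b ⊔ L r c, Commute x y := by
    intro a b c hab hac x hx y hy
    have h1 : L r b ⊔ L r c ≤ Subgroup.centralizer {x} := by
      refine sup_le ?_ ?_
      · intro z hz
        rw [Subgroup.mem_centralizer_singleton_iff]
        exact (L_comm hab hx hz).eq.symm
      · intro z hz
        rw [Subgroup.mem_centralizer_singleton_iff]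
        exact (L_comm hac hx hz).eq.symm
    exact (Subgroup.mem_centralizer_singleton_iff.1 (h1 hy)).symm
  have hs3 : ∀ a b c : Fin 3, a ≠ b → a ≠ c → ∀ z ∈ L r a, z ∈ L r b ⊔ L r c → z ^ 2 = 1 := by
    intro a b c hab hac z hz hz'
    exact L_sq he hτ F hσ hinj hz fun x hx => hc3 a b c hab hac x hx z hz'
  have hs2 : ∀ a b : Fin 3, a ≠ b → ∀ z ∈ L r a, z ∈ L r b → z ^ 2 = 1 := by
    intro a b hab z hz hz'
    exact L_sq he hτ F hσ hinj hz fun x hx => L_comm hab hx hz'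
  have hdec : ∀ a b c : Fin 3, a ≠ b → b ≠ c → a ≠ c → (∀ i, i = a ∨ i = b ∨ i = c) → ∀ u : Y4 r,
      u ∈ RGD.Sup (XX chevD4 4 (KK r)) A1std → ∀ j, u ^ r ^ j = 1 →
      ∃ x ∈ L r a, ∃ y ∈ L r b, ∃ z ∈ L r c, u = x * (y * z) ∧ x ^ r ^ j = 1 ∧ y ^ r ^ j = 1 ∧ z ^ r ^ j = 1 := by
    intro a b c hab hbc hac hall u hu j hj
    have h1 : u ∈ L r a ⊔ (L r b ⊔ L r c) := by
      refine Sup_le_L (fun i => ?_) hu
      rcases hall i with h | h | h <;> rw [h]
      · exact le_sup_left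
      · exact le_sup_left.trans le_sup_right
      · exact le_sup_right.trans le_sup_right
    obtain ⟨x, hx, w, hw, h2, h3, h4⟩ := split_two hodd (hc3 a b c hab hac) (hs3 a b c hab hac) h1 hj
    obtain ⟨y, hy, z, hz, h5, h6, h7⟩ := split_two hodd (fun p hp q hq => L_comm hbc hp hq) (hs2 b c hbc) hw h4
    exact ⟨x, hx, y, hy, z, hz, by rw [h2, h5], h3, h6, h7⟩
  have huniq : ∀ a b c : Fin 3, a ≠ b → b ≠ c → a ≠ c → ∀ x ∈ L r a, ∀ y ∈ L r b, ∀ z ∈ L r c,
      ∀ x' ∈ L r a, ∀ y' ∈ L r b, ∀ z' ∈ L r c, x * (y * z) = x' * (y' * z') → ∀ j, x ^ r ^ j = 1 →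
      y ^ r ^ j = 1 → x' ^ r ^ j = 1 → y' ^ r ^ j = 1 → x = x' ∧ y = y' ∧ z = z' := by
    intro a b c hab hbc hac x hx y hy z hz x' hx' y' hy' z' hz' heq j h1 h2 h1' h2'
    have hm : ∀ y ∈ L r b, ∀ z ∈ L r c, y * z ∈ L r b ⊔ L r c := fun y hy z hz =>
      Subgroup.mul_mem _ ((le_sup_left : L r b ≤ L r b ⊔ L r c) hy) ((le_sup_right : L r c ≤ L r b ⊔ L r c) hz)
    obtain ⟨h3, h4⟩ := uniq_two hodd (hc3 a b c hab hac) (hs3 a b c hab hac) hx hx' (hm y hy z hz)
      (hm y' hy' z' hz') heq h1 h1'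
    obtain ⟨h5, h6⟩ := uniq_two hodd (fun p hp q hq => L_comm hbc hp hq) (hs2 b c hbc) hy hy' hz hz' h4 h2 h2'
    exact ⟨h3, h5, h6⟩
  have hτp : ∀ (x : Y4 r) (j : ℕ), x ^ r ^ j = 1 → (τ x) ^ r ^ j = 1 := fun x j h => by
    rw [← map_pow, h, map_one]
  have hop1 : ∀ x : Y4 r, NInst.op τ x 1 = x := fun x => by
    rw [NInst.op_succ]
    show 1 * (τ ^ 0) x = x
    rw [one_mul, pow_zero, MulAut.one_apply]
  rcases perm_cases σ hinj with hid | ⟨a, b, c, hab, hbc, hac, hall, sa, sb, sc⟩ |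
      ⟨a, b, c, hab, hbc, hac, hall, sa, sb, sc⟩
  · -- all fixed
    have hK := fun i : Fin 3 => exists_comp hr5 hSL hPSL he hτ F hσ (i := i) (m := 1) one_pos (hid i)
      (fun t h1 h2 => by omega)
    choose K hqs hgen hle hW hmem using hK
    refine ⟨3, le_rfl, K, hqs, hgen, ?_, ?_⟩
    · intro i j hij x hx y hy
      have h1 : ∀ i, K i ≤ L r i := fun i => hle i _ fun t ht => by
        obtain rfl : t = 0 := by omega
        exact le_rfl
      exact (L_comm hij (h1 i hx) (h1 j hy)).eq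
    · refine le_antisymm (iSup_le hW) ?_
      rw [Subgroup.closure_le]
      rintro u ⟨hu, hfu, j, hj⟩
      obtain ⟨x, hx, y, hy, z, hz, rfl, h1, h2, h3⟩ := hdec 0 1 2 (by decide) (by decide) (by decide) (by decide) u hu j hj
      have hL : ∀ i, ∀ x ∈ L r i, τ x ∈ L r i := fun i x hx => by
        have := L_map F hσ hx
        rwa [hid] at this
      have h4 : τ x * (τ y * τ z) = x * (y * z) := by rw [← map_mul, ← map_mul]; exact hfu
      obtain ⟨h5, h6, h7⟩ := huniq 0 1 2 (by decide) (by decide) (by decide) _ (hL _ x hx) _ (hL _ y hy) _ (hL _ z hz)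
        x hx y hy z hz h4 j (hτp x j h1) (hτp y j h2) h1 h2
      have h8 : ∀ i, ∀ x ∈ L r i, x ^ r ^ j = 1 → τ x = x → x ∈ ⨆ i, K i := by
        intro i x hx hxj hfx
        have := hmem i x hx ⟨j, hxj⟩ (by rw [pow_one]; exact hfx)
        rw [hop1] at this
        exact (le_iSup K i) this
      exact Subgroup.mul_mem _ (h8 _ x hx h1 h5) (Subgroup.mul_mem _ (h8 _ y hy h2 h6) (h8 _ z hz h3 h7))
  · -- one fixed, two exchanged
    obtain ⟨K₁, hqs1, hgen1, hle1, hW1, hmem1⟩ := exists_comp hr5 hSL hPSL he hτ F hσ (i := a) (m := 1) one_pos sa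
      (fun t h1 h2 => by omega)
    obtain ⟨K₂, hqs2, hgen2, hle2, hW2, hmem2⟩ := exists_comp hr5 hSL hPSL he hτ F hσ (i := b) (m := 2) two_pos
      (by show σ (σ b) = b; rw [sb, sc])
      (fun t h1 h2 => by
        obtain rfl : t = 1 := by omega
        show σ b ≠ b
        rw [sb]
        exact hbc.symm)
    have hcomm : ∀ x ∈ K₁, ∀ y ∈ K₂, Commute x y := by
      intro x hx y hy
      have h1 : x ∈ L r a := hle1 _ (fun t ht => by
        obtain rfl : t = 0 := by omega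
        exact le_rfl) hx
      have h2 : y ∈ L r b ⊔ L r c := hle2 _ (fun t ht => by
        have h3 : t = 0 ∨ t = 1 := by omega
        rcases h3 with rfl | rfl
        · exact le_sup_left
        · show L r (σ b) ≤ _
          rw [sb]
          exact le_sup_right) hy
      exact hc3 a b c hab hac x h1 y h2
    refine ⟨2, by norm_num, ![K₁, K₂], ?_, ?_, ?_, ?_⟩
    · intro i
      fin_cases i
      · exact hqs1
      · exact hqs2
    · intro i
      fin_cases i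
      · exact hgen1
      · exact hgen2
    · intro i j hij x hx y hy
      fin_cases i <;> fin_cases j
      · exact absurd rfl hij
      · exact (hcomm x hx y hy).eq
      · exact (hcomm y hy x hx).eq.symm
      · exact absurd rfl hij
    · have hsup : (⨆ i, (![K₁, K₂] : Fin 2 → Subgroup (Y4 r)) i) = K₁ ⊔ K₂ := by
        apply le_antisymm
        · refine iSup_le fun i => ?_
          fin_cases i
          · exact le_sup_left
          · exact le_sup_right
        · exact sup_le (le_iSup (![K₁, K₂] : Fin 2 → Subgroup (Y4 r)) 0) (le_iSup (![K₁, K₂] : Fin 2 → Subgroup (Y4 r)) 1)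
      rw [hsup]
      refine le_antisymm (sup_le hW1 hW2) ?_
      rw [Subgroup.closure_le]
      rintro u ⟨hu, hfu, j, hj⟩
      obtain ⟨x, hx, y, hy, z, hz, rfl, h1, h2, h3⟩ := hdec a b c hab hbc hac hall u hu j hj
      have hxL : τ x ∈ L r a := by have := L_map F hσ hx; rwa [sa] at this
      have hyL : τ y ∈ L r c := by have := L_map F hσ hy; rwa [sb] at this
      have hzL : τ z ∈ L r b := by have := L_map F hσ hz; rwa [sc] at this
      have h4 : τ x * (τ z * τ y) = x * (y * z) := by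
        rw [(L_comm hbc hzL hyL).eq, ← map_mul, ← map_mul]
        exact hfu
      obtain ⟨h5, h6, h7⟩ := huniq a b c hab hbc hac _ hxL _ hzL _ hyL x hx y hy z hz h4 j (hτp x j h1)
        (hτp z j h3) h1 h2
      have h8 : x ∈ K₁ := by
        have := hmem1 x hx ⟨j, h1⟩ (by rw [pow_one]; exact h5)
        rwa [hop1] at this
      have h9 : y * z ∈ K₂ := by
        have h10 := hmem2 y hy ⟨j, h2⟩ (by
          rw [pow_succ, pow_one, MulAut.mul_apply, h7, h6])
        rw [NInst.op_succ, hop1, pow_one, h7] at h10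
        exact h10
      exact Subgroup.mul_mem _ ((le_sup_left : K₁ ≤ K₁ ⊔ K₂) h8) ((le_sup_right : K₂ ≤ K₁ ⊔ K₂) h9)
  · -- a cycle
    have hne : ∀ t, 0 < t → t < 3 → σ^[t] a ≠ a := by
      intro t h1 h2
      have h3 : t = 1 ∨ t = 2 := by omega
      rcases h3 with rfl | rfl
      · show σ a ≠ a
        rw [sa]
        exact hab.symm
      · show σ (σ a) ≠ a
        rw [sa, sb]
        exact hac.symm
    obtain ⟨K₁, hqs1, hgen1, hle1, hW1, hmem1⟩ := exists_comp hr5 hSL hPSL he hτ F hσ (i := a) (m := 3) three_pos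
      (by show σ (σ (σ a)) = a; rw [sa, sb, sc]) hne
    refine ⟨1, by norm_num, fun _ => K₁, fun _ => hqs1, fun _ => hgen1, ?_, ?_⟩
    · intro i j hij
      exact absurd (Subsingleton.elim i j) hij
    · rw [iSup_const]
      refine le_antisymm hW1 ?_
      rw [Subgroup.closure_le]
      rintro u ⟨hu, hfu, j, hj⟩
      obtain ⟨x, hx, y, hy, z, hz, rfl, h1, h2, h3⟩ := hdec a b c hab hbc hac hall u hu j hj
      have hxL : τ x ∈ L r b := by have := L_map F hσ hx; rwa [sa] at this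
      have hyL : τ y ∈ L r c := by have := L_map F hσ hy; rwa [sb] at this
      have hzL : τ z ∈ L r a := by have := L_map F hσ hz; rwa [sc] at this
      have h4 : τ z * (τ x * τ y) = x * (y * z) := by
        have h5 : Commute (τ z) (τ x * τ y) := hc3 a b c hab hac _ hzL _
          (Subgroup.mul_mem _ ((le_sup_left : L r b ≤ L r b ⊔ L r c) hxL) ((le_sup_right : L r c ≤ L r b ⊔ L r c) hyL))
        rw [h5.eq, mul_assoc, ← map_mul, ← map_mul]
        exact hfu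
      obtain ⟨h5, h6, h7⟩ := huniq a b c hab hbc hac _ hzL _ hxL _ hyL x hx y hy z hz h4 j (hτp z j h3)
        (hτp x j h1) h1 h2
      have h10 := hmem1 x hx ⟨j, h1⟩ (by
        rw [pow_succ, pow_succ, pow_one, MulAut.mul_apply, MulAut.mul_apply, h6, h7, h5])
      rw [NInst.op_succ, NInst.op_succ, hop1, pow_one, pow_two, MulAut.mul_apply, h6, h7, mul_assoc] at h10
      exact h10

end Main

end Cfsg.Agent.H705.Tri
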