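import Cfsg.Agent.H305.BalSL2
import Cfsg.Agent.H818.Gen.Defs
import Cfsg.Agent.SignalizersComponents.SLQuasisimple
import Cfsg.Prelude.Def_CaseTheorems

/-!
# S2187, TRI-6: the blocks (helper705)

`φ : SL₂(k) →* Y` with kernel `≤ {±1}`, `τ ^ m` the field automorphism on `φ`, the groups `τ ^ i (im φ)` (`i < m`)
pairwise commuting (`Blk`). `opHom` : `A ↦ ∏ τ ^ i (φ A)`; `Kb` : the image of `SL₂(F)`, `F` the fixed field.

* `Blk.qs`, `Blk.gen`, `Blk.fixed`, `Blk.Kb_le`, `Blk.op_mem`.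
* `split_two`, `uniq_two`: decomposition of the `r`-elements of a product of two commuting groups.
-/

set_option autoImplicit false
set_option linter.unusedSectionVars false

namespace Cfsg.Agent.H705.Tri

open Cfsg.Agent.ChevalleyStructure.SL2Hom Cfsg.Agent.H92.ExcSL2
open Cfsg.Agent.BpExc Cfsg.Agent.H305.BalSL2 Cfsg Cfsg.Agent.H818.Gen

universe u v

section SL2

variable {F : Type u} [Field F]

/-- An element of `SL₂(F)` centralising everything up to sign is `± 1`. -/
theorem eq_or_of_sign {A : SL2 F} (h : ∀ g : SL2 F, A * g = g * A ∨ A * g = -(g * A)) :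
    A = 1 ∨ A = -1 := by
  -- `A` commutes with unipotent elements
  have key : ∀ g : SL2 F, g.1 0 0 + g.1 1 1 = 2 → A * g = g * A := by
    intro g hg
    rcases h g with h1 | h1
    · exact h1
    have h2 : g = -(A⁻¹ * g * A) := by
      have : A⁻¹ * (A * g) = A⁻¹ * (-(g * A)) := by rw [h1]
      rw [inv_mul_cancel_left, mul_neg, ← mul_assoc] at this
      exact this
    have h3 : Matrix.trace (A⁻¹ * g * A).1 = Matrix.trace g.1 := by
      have e : (A⁻¹ * g * A).1 = (A⁻¹ * g).1 * A.1 := rfl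
      rw [e, Matrix.trace_mul_comm]
      have e' : A.1 * (A⁻¹ * g).1 = (A * (A⁻¹ * g)).1 := rfl
      rw [e', mul_inv_cancel_left]
    have h4 : Matrix.trace g.1 = 2 := by rw [Matrix.trace_fin_two]; exact hg
    have h5 : Matrix.trace g.1 = -Matrix.trace (A⁻¹ * g * A).1 := by
      conv_lhs => rw [h2]
      rw [← Matrix.trace_neg]
      rfl
    rw [h3, h4] at h5
    have h6 : (2 : F) = 0 := by
      have : (2 : F) * 2 = 0 := by linear_combination h5
      rcases _root_.mul_eq_zero.1 this with h | h <;> exact h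
    rw [h1]
    have h7 : ∀ x : F, -x = x := fun x => by linear_combination -x * h6
    apply Subtype.ext
    ext i j
    exact h7 _
  have h1 := key (up 1) (by simp [up]; norm_num)
  have h2 := key (lo 1) (by simp [lo]; norm_num)
  have a1 := congrArg (fun B : SL2 F => B.1 0 0) h1
  have a2 := congrArg (fun B : SL2 F => B.1 0 1) h1
  have a3 := congrArg (fun B : SL2 F => B.1 0 0) h2
  have s1 : (A * up (1 : F)).1 0 0 = A.1 0 0 := by
    show (A.1 * (up (1 : F)).1) 0 0 = _
    simp [up, Matrix.mul_apply, Fin.sum_univ_two]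
  have s2 : (up (1 : F) * A).1 0 0 = A.1 0 0 + A.1 1 0 := by
    show ((up (1 : F)).1 * A.1) 0 0 = _
    simp [up, Matrix.mul_apply, Fin.sum_univ_two]
  have s3 : (A * up (1 : F)).1 0 1 = A.1 0 0 + A.1 0 1 := by
    show (A.1 * (up (1 : F)).1) 0 1 = _
    simp [up, Matrix.mul_apply, Fin.sum_univ_two]
  have s4 : (up (1 : F) * A).1 0 1 = A.1 0 1 + A.1 1 1 := by
    show ((up (1 : F)).1 * A.1) 0 1 = _
    simp [up, Matrix.mul_apply, Fin.sum_univ_two]
  have s5 : (A * lo (1 : F)).1 0 0 = A.1 0 0 + A.1 0 1 := by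
    show (A.1 * (lo (1 : F)).1) 0 0 = _
    simp [lo, Matrix.mul_apply, Fin.sum_univ_two]
  have s6 : (lo (1 : F) * A).1 0 0 = A.1 0 0 := by
    show ((lo (1 : F)).1 * A.1) 0 0 = _
    simp [lo, Matrix.mul_apply, Fin.sum_univ_two]
  simp only [s1, s2] at a1
  simp only [s3, s4] at a2
  simp only [s5, s6] at a3
  have b10 : A.1 1 0 = 0 := by linear_combination -a1
  have b01 : A.1 0 1 = 0 := by linear_combination a3
  have b11 : A.1 1 1 = A.1 0 0 := by linear_combination -a2
  have hdet : A.1 0 0 * A.1 1 1 - A.1 0 1 * A.1 1 0 = 1 := by rw [← Matrix.det_fin_two]; exact A.2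
  rw [b10, b01, b11, mul_zero, sub_zero] at hdet
  have h8 : (A.1 0 0 - 1) * (A.1 0 0 + 1) = 0 := by linear_combination hdet
  rcases _root_.mul_eq_zero.1 h8 with h9 | h9
  · left
    have h10 : A.1 0 0 = 1 := by linear_combination h9
    apply Subtype.ext
    show A.1 = 1
    ext i j
    fin_cases i <;> fin_cases j <;> simp [b10, b01, b11, h10]
  · right
    have h10 : A.1 0 0 = -1 := by linear_combination h9
    apply Subtype.ext
    show A.1 = -1
    ext i j
    fin_cases i <;> fin_cases j <;> simp [b10, b01, b11, h10]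

theorem map_up {E : Type*} [Field E] (ι : F →+* E) (s : F) :
    Matrix.SpecialLinearGroup.map ι (up s) = (up (ι s) : Matrix.SpecialLinearGroup (Fin 2) E) := by
  apply Subtype.ext
  show (up s).1.map ι = (up (ι s)).1
  ext a b
  fin_cases a <;> fin_cases b <;> simp [up]

theorem map_lo {E : Type*} [Field E] (ι : F →+* E) (s : F) :
    Matrix.SpecialLinearGroup.map ι (lo s) = (lo (ι s) : Matrix.SpecialLinearGroup (Fin 2) E) := by
  apply Subtype.ext
  show (lo s).1.map ι = (lo (ι s)).1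
  ext a b
  fin_cases a <;> fin_cases b <;> simp [lo]

theorem map_inj {E : Type*} [Field E] (ι : F →+* E) :
    Function.Injective (Matrix.SpecialLinearGroup.map ι : Matrix.SpecialLinearGroup (Fin 2) F →* _) := by
  intro a b hab
  apply Subtype.ext
  ext x y
  have := congrArg (fun z : Matrix.SpecialLinearGroup (Fin 2) E => z.1 x y) hab
  exact ι.injective this

/-- Two homomorphisms from `SL₂(F)` agreeing on the transvections are equal. -/
theorem hom_ext {Y : Type*} [Group Y] {f g : SL2 F →* Y} (hu : ∀ s, f (up s) = g (up s))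
    (hl : ∀ s, f (lo s) = g (lo s)) : f = g := by
  have h1 : Subgroup.closure (Set.range (up (F := F)) ∪ Set.range (lo (F := F))) ≤ f.eqLocus g := by
    rw [Subgroup.closure_le]
    rintro _ (⟨s, rfl⟩ | ⟨s, rfl⟩)
    · exact hu s
    · exact hl s
  ext A
  exact h1 (mem_closure_SL2 A)

end SL2

section Quasi

open Subgroup

/-- A nontrivial homomorphic image of a quasisimple group is quasisimple. -/
theorem isQuasisimple_of_surjective {X Y : Type*} [Group X] [Group Y] [Nontrivial Y]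
    (f : X →* Y) (hf : Function.Surjective f) (hX : IsQuasisimple X) : IsQuasisimple Y := by
  have hp : Group.IsPerfect X := hX.1
  have hs : IsSimpleGroup (X ⧸ center X) := hX.2
  have hpY : Group.IsPerfect Y := Group.IsPerfect.ofSurjective hf
  refine ⟨hpY, ?_⟩
  have hle : center X ≤ (center Y).comap f := by
    intro x hx
    rw [mem_comap, mem_center_iff]
    intro y
    obtain ⟨x', rfl⟩ := hf y
    rw [← map_mul, ← map_mul, mem_center_iff.mp hx x']
  have hne : Nontrivial (Y ⧸ center Y) := by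
    by_contra h
    rw [not_nontrivial_iff_subsingleton, QuotientGroup.subsingleton_iff] at h
    have hcomm : IsMulCommutative Y := ⟨⟨fun a b => by
      have ha : b ∈ center Y := by rw [h]; exact mem_top b
      exact mem_center_iff.mp ha a⟩⟩
    exact Group.IsPerfect.not_isMulCommutative Y hcomm
  refine IsSimpleGroup.isSimpleGroup_of_surjective (QuotientGroup.map (center X) (center Y) f hle) ?_
  intro y
  obtain ⟨y, rfl⟩ := QuotientGroup.mk_surjective y
  obtain ⟨x, rfl⟩ := hf y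
  exact ⟨(x : X ⧸ center X), rfl⟩

theorem mem_center_iff' {F : Type*} [Field F] {x : Matrix.SpecialLinearGroup (Fin 2) F} :
    x ∈ Subgroup.center (Matrix.SpecialLinearGroup (Fin 2) F) ↔ x = 1 ∨ x = -1 := by
  constructor
  · intro hx
    exact eq_or_of_sign fun g => Or.inl (Subgroup.mem_center_iff.1 hx g).symm
  · rintro (rfl | rfl)
    · exact one_mem _
    · rw [Subgroup.mem_center_iff]
      intro g
      rw [mul_neg, neg_mul, mul_one, one_mul]

end Quasi

/-! ### two commuting groups -/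

section Two

variable {Y : Type*} [Group Y] {r : ℕ}

/-- Existence of the decomposition into `r`-elements. -/
theorem split_two (hr : Odd r) {M N : Subgroup Y} (hc : ∀ a ∈ M, ∀ b ∈ N, Commute a b)
    (h2 : ∀ z ∈ M, z ∈ N → z ^ 2 = 1) {u : Y} (hu : u ∈ M ⊔ N) {j : ℕ} (hj : u ^ r ^ j = 1) :
    ∃ x ∈ M, ∃ y ∈ N, u = x * y ∧ x ^ r ^ j = 1 ∧ y ^ r ^ j = 1 := by
  have hMN : ∃ x ∈ M, ∃ y ∈ N, u = x * y := by
    let P : Subgroup Y :=
      { carrier := {u | ∃ x ∈ M, ∃ y ∈ N, u = x * y}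
        one_mem' := ⟨1, M.one_mem, 1, N.one_mem, (mul_one 1).symm⟩
        mul_mem' := by
          rintro _ _ ⟨x, hx, y, hy, rfl⟩ ⟨x', hx', y', hy', rfl⟩
          refine ⟨x * x', M.mul_mem hx hx', y * y', N.mul_mem hy hy', ?_⟩
          have h1 := (hc x' hx' y hy).eq
          calc x * y * (x' * y') = x * (y * x') * y' := by group
            _ = x * (x' * y) * y' := by rw [h1]
            _ = _ := by group
        inv_mem' := by
          rintro _ ⟨x, hx, y, hy, rfl⟩
          refine ⟨x⁻¹, M.inv_mem hx, y⁻¹, N.inv_mem hy, ?_⟩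
          rw [(hc x hx y hy).eq, mul_inv_rev] }
    have h3 : M ⊔ N ≤ P := sup_le (fun x hx => ⟨x, hx, 1, N.one_mem, (mul_one x).symm⟩)
      fun y hy => ⟨1, M.one_mem, y, hy, (one_mul y).symm⟩
    exact h3 hu
  obtain ⟨x, hx, y, hy, rfl⟩ := hMN
  have hxy := hc x hx y hy
  obtain ⟨n, hn⟩ : ∃ n, n = r ^ j := ⟨_, rfl⟩
  have hodd : Odd n := by rw [hn]; exact hr.pow
  rw [← hn] at hj ⊢
  rw [hxy.mul_pow] at hj
  have h5 : x ^ n = (y ^ n)⁻¹ := eq_inv_of_mul_eq_one_left hj
  have h6 : (x ^ n) ^ 2 = 1 := h2 _ (M.pow_mem hx n) (by rw [h5]; exact N.inv_mem (N.pow_mem hy n))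
  have h7 : (y ^ n) ^ 2 = 1 := by
    have : y ^ n = (x ^ n)⁻¹ := by rw [h5, inv_inv]
    rw [this, inv_pow, h6, inv_one]
  obtain ⟨c, hc'⟩ := hodd
  have h8 : ∀ z : Y, (z ^ n) ^ 2 = 1 → (z ^ (n + 1)) ^ n = 1 := by
    intro z hz
    have : z ^ (n + 1) = z ^ (2 * (c + 1)) := by congr 1; omega
    rw [this, ← pow_mul]
    have e : 2 * (c + 1) * n = n * 2 * (c + 1) := by ring
    rw [e, pow_mul, pow_mul, hz, one_pow]
  refine ⟨x ^ (n + 1), M.pow_mem hx _, y ^ (n + 1), N.pow_mem hy _, ?_, h8 x h6, h8 y h7⟩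
  rw [pow_succ, pow_succ]
  have h9 : Commute x (y ^ n) := hxy.pow_right n
  calc x * y = (x ^ n * y ^ n) * (x * y) := by rw [hj, one_mul]
    _ = x ^ n * (y ^ n * x) * y := by group
    _ = x ^ n * (x * y ^ n) * y := by rw [h9.eq]
    _ = _ := by group

/-- Uniqueness. -/
theorem uniq_two (hr : Odd r) {M N : Subgroup Y} (hc : ∀ a ∈ M, ∀ b ∈ N, Commute a b)
    (h2 : ∀ z ∈ M, z ∈ N → z ^ 2 = 1) {x x' y y' : Y} (hx : x ∈ M) (hx' : x' ∈ M) (hy : y ∈ N) (hy' : y' ∈ N)
    (he : x * y = x' * y') {j : ℕ} (h3 : x ^ r ^ j = 1) (h3' : x' ^ r ^ j = 1) : x = x' ∧ y = y' := by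
  obtain ⟨n, hn⟩ : ∃ n, n = r ^ j := ⟨_, rfl⟩
  have hodd : Odd n := by rw [hn]; exact hr.pow
  rw [← hn] at h3 h3'
  -- `z = x'⁻¹ x = y' y⁻¹`
  have hz : x'⁻¹ * x = y' * y⁻¹ := by
    rw [eq_mul_inv_iff_mul_eq, mul_assoc, he, inv_mul_cancel_left]
  have hz2 : (x'⁻¹ * x) ^ 2 = 1 := h2 _ (M.mul_mem (M.inv_mem hx') hx)
    (by rw [hz]; exact N.mul_mem hy' (N.inv_mem hy))
  have hcz : Commute x' (x'⁻¹ * x) := by
    rw [hz]
    exact hc _ hx' _ (N.mul_mem hy' (N.inv_mem hy))
  have h4 : x = x' * (x'⁻¹ * x) := by rw [mul_inv_cancel_left]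
  have h5 : (x'⁻¹ * x) ^ n = 1 := by
    have h6 := h3
    rw [h4, hcz.mul_pow, h3', one_mul] at h6
    exact h6
  have h7 : x'⁻¹ * x = 1 := by
    obtain ⟨c, hc'⟩ := hodd
    rw [hc', pow_succ, pow_mul, hz2, one_pow, one_mul] at h5
    exact h5
  have h8 : x = x' := by rw [h4, h7, mul_one]
  exact ⟨h8, by rw [h8] at he; exact mul_left_cancel he⟩

end Two

/-! ### the blocks -/

section Blk

variable {Y : Type v} [Group Y] {k : Type u} [Field k] {r : ℕ} [hrf : Fact r.Prime] [CharP k r]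

/-- a block -/
structure Blk (τ : MulAut Y) (Q m : ℕ) (φ : SL2 k →* Y) : Prop where
  pos : 0 < m
  ker : ∀ A, φ A = 1 → A = 1 ∨ A = -1
  up : ∀ s, (τ ^ m) (φ (up s)) = φ (up (s ^ Q))
  lo : ∀ s, (τ ^ m) (φ (lo s)) = φ (lo (s ^ Q))
  comm : ∀ i, 0 < i → i < m → ∀ g g', Commute (φ g) ((τ ^ i) (φ g'))

variable {τ : MulAut Y} {Q m : ℕ} {φ : SL2 k →* Y}

theorem Blk.cc (h : Blk τ Q m φ) : ∀ i i', i ≠ i' → i < m → i' < m → ∀ g g',
    Commute ((τ ^ i) (φ g)) ((τ ^ i') (φ g')) := by
  have h0 : ∀ i i', i < i' → i' < m → ∀ g g', Commute ((τ ^ i) (φ g)) ((τ ^ i') (φ g')) := by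
    intro i i' hii hi' g g'
    obtain ⟨d, rfl⟩ := Nat.exists_eq_add_of_lt hii
    have e : τ ^ (i + d + 1) = τ ^ i * τ ^ (d + 1) := by rw [← pow_add, add_assoc]
    rw [e, MulAut.mul_apply]
    exact (h.comm (d + 1) (Nat.succ_pos d) (by omega) g g').map (τ ^ i)
  intro i i' hne hi hi' g g'
  rcases lt_or_gt_of_ne hne with h' | h'
  · exact h0 i i' h' hi' g g'
  · exact (h0 i' i h' hi g' g).symm

/-- `A ↦ ∏ τ ^ i (φ A)` -/
def opHom (h : Blk τ Q m φ) : SL2 k →* Y where
  toFun := fun a => NInst.op τ (φ a) m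
  map_one' := by
    show ((List.range m).map fun i => (τ ^ i) (φ 1)).prod = 1
    apply List.prod_eq_one
    intro x hx
    obtain ⟨i, -, rfl⟩ := List.mem_map.1 hx
    rw [map_one, map_one]
  map_mul' := fun a b => by
    rw [map_mul]
    refine op_mul fun i i' hi hi' => ?_
    exact h.cc i i' hi.ne (hi.trans hi') hi' _ _

theorem opHom_apply (h : Blk τ Q m φ) (A : SL2 k) : opHom h A = NInst.op τ (φ A) m := rfl

/-- The kernel of `opHom`. -/
theorem Blk.ker_op (h : Blk τ Q m φ) {A : SL2 k} (hA : opHom h A = 1) : A = 1 ∨ A = -1 := by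
  have h2 : (τ ^ 0) (φ A) ∈ Subgroup.centralizer (Set.range φ) := by
    refine NInst.mem_of_op h.pos (by rw [← opHom_apply h, hA]; exact one_mem _) fun i hi hi0 => ?_
    rw [Subgroup.mem_centralizer_iff]
    rintro _ ⟨g, rfl⟩
    exact (h.comm i (Nat.pos_of_ne_zero hi0) hi g A).eq
  rw [pow_zero, MulAut.one_apply, Subgroup.mem_centralizer_iff] at h2
  apply eq_or_of_sign
  intro g
  have h4 := h2 (φ g) ⟨g, rfl⟩
  have h5 : φ ((A * g) * (g * A)⁻¹) = 1 := by
    rw [map_mul, map_inv, map_mul, map_mul, h4, mul_inv_cancel]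
  rcases h.ker _ h5 with h6 | h6
  · left
    exact mul_inv_eq_one.1 h6
  · right
    have h7 := mul_inv_eq_iff_eq_mul.1 h6
    rw [h7, neg_mul, one_mul]

/-- The centralizer of `im φ` in `im φ` has exponent two. -/
theorem Blk.sq (h : Blk τ Q m φ) {z : Y} (hz : z ∈ φ.range) (hc : ∀ g, Commute (φ g) z) : z ^ 2 = 1 := by
  obtain ⟨A, rfl⟩ := hz
  have h1 : A = 1 ∨ A = -1 := by
    apply eq_or_of_sign
    intro g
    have h5 : φ ((A * g) * (g * A)⁻¹) = 1 := by
      rw [map_mul, map_inv, map_mul, map_mul, (hc g).eq, mul_inv_cancel]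
    rcases h.ker _ h5 with h6 | h6
    · left
      exact mul_inv_eq_one.1 h6
    · right
      have h7 := mul_inv_eq_iff_eq_mul.1 h6
      rw [h7, neg_mul, one_mul]
  rw [← map_pow]
  rcases h1 with rfl | rfl
  · rw [one_pow, map_one]
  · rw [neg_one_sq, map_one]

variable {F : Type} [Field F] (ι : F →+* k)

/-- the image of `SL₂(F)` -/
def Kb (h : Blk τ Q m φ) : Subgroup Y := ((opHom h).comp (Matrix.SpecialLinearGroup.map ι)).range

theorem Kb_eq (h : Blk τ Q m φ) : Kb ι h = Subgroup.closure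
    (Set.range (fun s => NInst.op τ (φ (ChevalleyStructure.SL2Hom.up (ι s))) m) ∪
      Set.range (fun s => NInst.op τ (φ (ChevalleyStructure.SL2Hom.lo (ι s))) m)) := by
  have h1 : (⊤ : Subgroup (SL2 F)) = Subgroup.closure (Set.range (ChevalleyStructure.SL2Hom.up (F := F)) ∪
      Set.range (ChevalleyStructure.SL2Hom.lo (F := F))) := (eq_top_iff.2 fun A _ => mem_closure_SL2 A).symm
  unfold Kb
  rw [MonoidHom.range_eq_map, h1, MonoidHom.map_closure]
  congr 1
  rw [Set.image_union, ← Set.range_comp, ← Set.range_comp]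
  congr 2
  · funext s
    show opHom h (Matrix.SpecialLinearGroup.map ι (ChevalleyStructure.SL2Hom.up s)) = _
    rw [map_up]
    rfl
  · funext s
    show opHom h (Matrix.SpecialLinearGroup.map ι (ChevalleyStructure.SL2Hom.lo s)) = _
    rw [map_lo]
    rfl

theorem Blk.ker_comp (h : Blk τ Q m φ) {A : SL2 F}
    (hA : ((opHom h).comp (Matrix.SpecialLinearGroup.map ι)) A = 1) : A = 1 ∨ A = -1 := by
  rcases h.ker_op hA with h1 | h1
  · left
    apply map_inj ι
    rw [h1, map_one]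
  · right
    apply map_inj ι
    rw [h1]
    apply Subtype.ext
    ext i j
    show (-1 : Matrix (Fin 2) (Fin 2) k) i j = ι ((-1 : Matrix (Fin 2) (Fin 2) F) i j)
    rw [Matrix.neg_apply, Matrix.neg_apply, map_neg, Matrix.one_apply, Matrix.one_apply]
    split_ifs <;> simp

theorem Blk.qs (h : Blk τ Q m φ) (h4 : 4 ≤ Nat.card F) : IsQuasisimple ↥(Kb ι h) := by
  have h3 := SignalizersComponents.SLQuasisimple.isQuasisimple_two h4
  have hnt : Nontrivial ↥(Kb ι h) := by
    refine ⟨⟨⟨_, ⟨ChevalleyStructure.SL2Hom.up 1, rfl⟩⟩, 1, fun h5 => ?_⟩⟩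
    have h6 := h.ker_comp ι (congrArg Subtype.val h5)
    rcases h6 with h6 | h6
    · have := congrArg (fun B : SL2 F => B.1 0 1) h6
      simp [ChevalleyStructure.SL2Hom.up] at this
    · have := congrArg (fun B : SL2 F => B.1 0 1) h6
      simp [ChevalleyStructure.SL2Hom.up] at this
  exact isQuasisimple_of_surjective
    ((opHom h).comp (Matrix.SpecialLinearGroup.map ι)).rangeRestrict (MonoidHom.rangeRestrict_surjective _) h3

theorem Blk.gen (h : Blk τ Q m φ) (hSL : Gen 3 (Matrix.SpecialLinearGroup (Fin 2) F))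
    (hPSL : Gen 3 (Matrix.SpecialLinearGroup (Fin 2) F ⧸ Subgroup.center (Matrix.SpecialLinearGroup (Fin 2) F))) :
    Gen 3 ↥(Kb ι h) := by
  by_cases hk : ((opHom h).comp (Matrix.SpecialLinearGroup.map ι)).ker = ⊥
  · exact hSL.congr (MonoidHom.ofInjective ((MonoidHom.ker_eq_bot_iff _).1 hk))
  · have hke : ((opHom h).comp (Matrix.SpecialLinearGroup.map ι)).ker =
        Subgroup.center (Matrix.SpecialLinearGroup (Fin 2) F) := by
      obtain ⟨⟨A, hA⟩, hA1⟩ := Subgroup.ne_bot_iff_exists_ne_one.1 hk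
      have hneg : (-1 : SL2 F) ∈ ((opHom h).comp (Matrix.SpecialLinearGroup.map ι)).ker := by
        rcases h.ker_comp ι hA with h3 | h3
        · exact absurd (Subtype.ext h3) hA1
        · rw [← h3]; exact hA
      ext B
      rw [mem_center_iff']
      constructor
      · intro hB
        exact h.ker_comp ι hB
      · rintro (rfl | rfl)
        · exact one_mem _
        · exact hneg
    exact hPSL.congr ((QuotientGroup.quotientMulEquivOfEq hke.symm).trans (QuotientGroup.quotientKerEquivRange _))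

/-- the action of `τ ^ m` -/
theorem Blk.pow {e : ℕ} (h : Blk τ (r ^ e) m φ) (A : SL2 k) :
    (τ ^ m) (φ A) = φ (Matrix.SpecialLinearGroup.map (iterateFrobenius k r e) A) := by
  have h1 : ((τ ^ m : MulAut Y).toMonoidHom.comp φ) = φ.comp (Matrix.SpecialLinearGroup.map (iterateFrobenius k r e)) := by
    apply hom_ext
    · intro s
      show (τ ^ m) (φ _) = φ (Matrix.SpecialLinearGroup.map (iterateFrobenius k r e) _)
      rw [map_up, iterateFrobenius_def]
      exact h.up s
    · intro s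
      show (τ ^ m) (φ _) = φ (Matrix.SpecialLinearGroup.map (iterateFrobenius k r e) _)
      rw [map_lo, iterateFrobenius_def]
      exact h.lo s
  exact DFunLike.congr_fun h1 A

/-- **The fixed `r`-elements.** -/
theorem Blk.op_mem {e : ℕ} (h : Blk τ (r ^ e) m φ) (hr : Odd r) (hι : ∀ s : k, s ^ r ^ e = s → s ∈ Set.range ι)
    {x : Y} (hx : x ∈ φ.range) {j : ℕ} (hj : x ^ r ^ j = 1) (hf : (τ ^ m) x = x) : NInst.op τ x m ∈ Kb ι h := by
  have hodd : Odd (r ^ j) := hr.pow
  obtain ⟨A, hA, hAj⟩ : ∃ A, φ A = x ∧ A ^ r ^ j = 1 := by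
    obtain ⟨A, rfl⟩ := hx
    rw [← map_pow] at hj
    rcases h.ker _ hj with h1 | h1
    · exact ⟨A, rfl, h1⟩
    · refine ⟨-A, ?_, ?_⟩
      · have h2 : -A = (-1) * A := by rw [neg_one_mul]
        rw [h2, map_mul, ← h1, hj, one_mul]
      · rw [hodd.neg_pow, h1, neg_neg]
  have h2 : (2 : k) ≠ 0 := by
    intro h2
    have h3 : ((2 : ℕ) : k) = 0 := by exact_mod_cast h2
    rw [CharP.cast_eq_zero_iff k r 2] at h3
    have h4 := (Nat.prime_dvd_prime_iff_eq hrf.out Nat.prime_two).1 h3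
    rw [h4] at hr
    exact absurd hr (by decide)
  obtain ⟨B, hB⟩ : ∃ B, B = Matrix.SpecialLinearGroup.map (iterateFrobenius k r e) A := ⟨_, rfl⟩
  have h3 : φ B = φ A := by rw [hB, ← h.pow, hA]; exact hf
  have h4 : B = A := by
    have h5 : φ (B * A⁻¹) = 1 := by rw [map_mul, map_inv, h3, mul_inv_cancel]
    rcases h.ker _ h5 with h6 | h6
    · exact mul_inv_eq_one.1 h6
    · exfalso
      have h7 : B = -A := by rw [mul_inv_eq_iff_eq_mul.1 h6, neg_one_mul]
      have h8 : B ^ r ^ j = 1 := by rw [hB, ← map_pow, hAj, map_one]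
      rw [h7, hodd.neg_pow, hAj] at h8
      have h9 := congrArg (fun C : SL2 k => C.1 0 0) h8
      have h10 : (-1 : k) = 1 := by simpa using h9
      apply h2
      linear_combination -h10
  have h5 : ∀ i j, A.1 i j ∈ Set.range ι := by
    intro i j
    apply hι
    have h6 : (Matrix.SpecialLinearGroup.map (iterateFrobenius k r e) A).1 i j = A.1 i j := by rw [← hB, h4]
    have h7 : (Matrix.SpecialLinearGroup.map (iterateFrobenius k r e) A).1 i j = iterateFrobenius k r e (A.1 i j) := rfl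
    rw [h7, iterateFrobenius_def] at h6
    exact h6
  choose a ha using h5
  have h6 : (Matrix.of a).det = 1 := by
    apply ι.injective
    rw [Matrix.det_fin_two, map_one, map_sub, map_mul, map_mul]
    show ι (a 0 0) * ι (a 1 1) - ι (a 0 1) * ι (a 1 0) = 1
    rw [ha, ha, ha, ha, ← Matrix.det_fin_two]
    exact A.2
  refine ⟨⟨Matrix.of a, h6⟩, ?_⟩
  show opHom h (Matrix.SpecialLinearGroup.map ι ⟨Matrix.of a, h6⟩) = _
  have h7 : Matrix.SpecialLinearGroup.map ι ⟨Matrix.of a, h6⟩ = A := by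
    apply Subtype.ext
    ext i j
    exact ha i j
  rw [h7, opHom_apply, hA]

/-- `Kb` lies in every closed set of `r`-elements. -/
theorem Blk.Kb_le {e : ℕ} (h : Blk τ (r ^ e) m φ) (hι : ∀ s : F, (ι s) ^ r ^ e = ι s) {M W : Subgroup Y}
    (hM : ∀ i < m, ∀ g, (τ ^ i) (φ g) ∈ M)
    (hW : ∀ u ∈ M, τ u = u → (∃ j, u ^ r ^ j = 1) → u ∈ W) : Kb ι h ≤ W := by
  have hcomm : ∀ g : SL2 k, ∀ i < m, Commute (φ g) ((τ ^ i) (φ g)) := by
    intro g i hi
    rcases Nat.eq_zero_or_pos i with rfl | h0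
    · exact Commute.refl _
    · exact h.comm i h0 hi g g
  have hchar : ∀ s : k, (ChevalleyStructure.SL2Hom.up s) ^ r = 1 ∧ (ChevalleyStructure.SL2Hom.lo s) ^ r = 1 := by
    intro s
    have hu : ∀ n : ℕ, (ChevalleyStructure.SL2Hom.up s) ^ n = ChevalleyStructure.SL2Hom.up (n * s) := by
      intro n
      induction n with
      | zero =>
        rw [pow_zero]
        apply Subtype.ext
        ext i j
        fin_cases i <;> fin_cases j <;> simp [ChevalleyStructure.SL2Hom.up]
      | succ n ih =>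
        rw [pow_succ, ih]
        apply Subtype.ext
        show (ChevalleyStructure.SL2Hom.up ((n : k) * s)).1 * (ChevalleyStructure.SL2Hom.up s).1 = _
        ext i j
        fin_cases i <;> fin_cases j <;> simp [ChevalleyStructure.SL2Hom.up, Matrix.mul_apply, Fin.sum_univ_two]
        ring
    have hl : ∀ n : ℕ, (ChevalleyStructure.SL2Hom.lo s) ^ n = ChevalleyStructure.SL2Hom.lo (n * s) := by
      intro n
      induction n with
      | zero =>
        rw [pow_zero]
        apply Subtype.ext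
        ext i j
        fin_cases i <;> fin_cases j <;> simp [ChevalleyStructure.SL2Hom.lo]
      | succ n ih =>
        rw [pow_succ, ih]
        apply Subtype.ext
        show (ChevalleyStructure.SL2Hom.lo ((n : k) * s)).1 * (ChevalleyStructure.SL2Hom.lo s).1 = _
        ext i j
        fin_cases i <;> fin_cases j <;> simp [ChevalleyStructure.SL2Hom.lo, Matrix.mul_apply, Fin.sum_univ_two]
        ring
    rw [hu, hl, CharP.cast_eq_zero, zero_mul]
    constructor
    · apply Subtype.ext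
      ext i j
      fin_cases i <;> fin_cases j <;> simp [ChevalleyStructure.SL2Hom.up]
    · apply Subtype.ext
      ext i j
      fin_cases i <;> fin_cases j <;> simp [ChevalleyStructure.SL2Hom.lo]
  have key : ∀ A : SL2 k, A ^ r = 1 → (τ ^ m) (φ A) = φ A → NInst.op τ (φ A) m ∈ W := by
    intro A hA hf
    refine hW _ (NInst.op_mem fun i hi => hM i hi A) (NInst.op_fixed hf (hcomm A) h.pos) ⟨1, ?_⟩
    rw [pow_one, ← opHom_apply h, ← map_pow, hA, map_one]
  rw [Kb_eq, Subgroup.closure_le]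
  rintro _ (⟨s, rfl⟩ | ⟨s, rfl⟩)
  · exact key _ (hchar _).1 (by rw [h.up, hι])
  · exact key _ (hchar _).2 (by rw [h.lo, hι])

theorem Blk.Kb_mem (h : Blk τ Q m φ) {M : Subgroup Y}
    (hM : ∀ i < m, ∀ g, (τ ^ i) (φ g) ∈ M) : Kb ι h ≤ M := by
  rintro _ ⟨A, rfl⟩
  exact NInst.op_mem fun i hi => hM i hi _

end Blk

end Cfsg.Agent.H705.Tri
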